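import Cfsg.Agent.Chev.Sparse
import Cfsg.Prelude.Def_ChevG2

/-!
# The six-dimensional module of `G₂` in characteristic two: tables over `ℤ/2`
-/

set_option autoImplicit false

namespace Cfsg.Agent.KnownA.G24

open Cfsg.Lie Cfsg.Agent.Chev
open scoped Matrix

/-- matrices over `ℤ/2` on the six short weights -/
abbrev M2 : Type := Matrix (Fin 6) (Fin 6) (ZMod 2)

/-- a list of positions, as a matrix -/
def pm (L : List (Fin 6 × Fin 6)) : M2 := (L.map fun p => Matrix.single p.1 p.2 1).sum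

/-- the linear term of a root element -/
def aP : Fin 12 → List (Fin 6 × Fin 6) :=
  ![[(2, 5), (4, 3)], [(0, 5), (4, 1)], [(0, 3), (2, 1)], [(1, 5), (4, 0)], [(3, 5), (4, 2)], [(1, 3), (2, 0)],
    [(0, 2), (3, 1)], [(2, 4), (5, 3)], [(0, 4), (5, 1)], [(1, 2), (3, 0)], [(1, 4), (5, 0)], [(3, 4), (5, 2)]]

/-- the quadratic term of a root element -/
def bP : Fin 12 → List (Fin 6 × Fin 6) :=
  ![[], [], [(4, 5)], [(2, 3)], [(0, 1)], [], [], [(1, 0)], [(3, 2)], [(5, 4)], [], []]

/-- positions above the diagonal of the alternating matrix of a basis vector -/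
def dP : Fin 14 → List (Fin 6 × Fin 6) :=
  ![[(2, 3), (4, 5)], [(0, 1), (2, 3)], [(2, 4)], [(0, 4)], [(0, 2)], [(1, 4)], [(3, 4)], [(1, 2)],
    [(0, 3)], [(2, 5)], [(0, 5)], [(1, 3)], [(1, 5)], [(3, 5)]]

/-- the alternating matrix of a basis vector -/
def dM (j : ℕ) : M2 :=
  if h : j < 14 then pm (dP ⟨j, h⟩) + (pm (dP ⟨j, h⟩))ᵀ else 0

/-- the invariant form -/
def jM : M2 := pm [(0, 1), (1, 0), (2, 3), (3, 2), (4, 5), (5, 4)]

/-- sum of the basis matrices prescribed by a list of integer entries -/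
def lin (L : List (ℕ × ℤ)) : M2 := (L.map fun q => (q.2 : ZMod 2) • dM q.1).sum

/-- left multiplication by `pm L` -/
def lmul (L : List (Fin 6 × Fin 6)) (M : M2) : M2 :=
  Matrix.of fun i j => (L.map fun p => if i = p.1 then M p.2 j else 0).sum

theorem pm_mul (L : List (Fin 6 × Fin 6)) (M : M2) : pm L * M = lmul L M := by
  induction L with
  | nil => ext i j; simp [pm, lmul]
  | cons p L ih =>
    have h : pm (p :: L) = Matrix.single p.1 p.2 1 + pm L := by simp [pm]
    rw [h, Matrix.add_mul, ih]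
    ext i j
    by_cases e : i = p.1
    · subst e; simp [lmul]
    · simp [lmul, e]

/-- right multiplication by the transpose of `pm L` -/
def rmul (M : M2) (L : List (Fin 6 × Fin 6)) : M2 := (lmul L Mᵀ)ᵀ

theorem mul_pmT (M : M2) (L : List (Fin 6 × Fin 6)) : M * (pm L)ᵀ = rmul M L := by
  rw [rmul, ← pm_mul, Matrix.transpose_mul, Matrix.transpose_transpose]

/-- the coefficients of a congruence by a root element -/
theorem congrData : ∀ r : Fin 12, ∀ j : Fin 14,
    lmul (aP r) (dM j) + rmul (dM j) (aP r) = lin (colA chevG2 r 1 j) ∧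
    lmul (bP r) (dM j) + rmul (dM j) (bP r) + rmul (lmul (aP r) (dM j)) (aP r) = lin (colA chevG2 r 2 j) ∧
    rmul (lmul (aP r) (dM j)) (bP r) + rmul (lmul (bP r) (dM j)) (aP r) = lin (colA chevG2 r 3 j) ∧
    rmul (lmul (bP r) (dM j)) (bP r) = 0 := by
  decide +kernel

/-- the form is invariant -/
theorem formData : ∀ r : Fin 12,
    lmul (aP r) jM + rmul jM (aP r) = 0 ∧
    lmul (bP r) jM + rmul jM (bP r) + rmul (lmul (aP r) jM) (aP r) = 0 ∧
    rmul (lmul (aP r) jM) (bP r) + rmul (lmul (bP r) jM) (aP r) = 0 ∧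
    rmul (lmul (bP r) jM) (bP r) = 0 := by
  decide +kernel

theorem nilData : ∀ r : Fin 12,
    lmul (aP r) (pm (aP r)) = 0 ∧ lmul (aP r) (pm (bP r)) = 0 ∧ lmul (bP r) (pm (aP r)) = 0 ∧
      lmul (bP r) (pm (bP r)) = 0 := by
  decide +kernel

/-- an entry picking out each basis vector -/
def sel : Fin 14 → Fin 6 × Fin 6 :=
  ![(4, 5), (0, 1), (2, 4), (0, 4), (0, 2), (1, 4), (3, 4), (1, 2), (0, 3), (2, 5), (0, 5), (1, 3), (1, 5), (3, 5)]

theorem selData : ∀ j k : Fin 14, dM k (sel j).1 (sel j).2 = if k = j then 1 else 0 := by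
  decide +kernel

/-- an elementary alternating matrix -/
def eM (a b : Fin 6) : M2 := Matrix.single a b 1 + Matrix.single b a 1

/-- the elementary alternating matrices are combinations of the basis matrices and the form -/
theorem spanData : ∀ a b : Fin 6, a ≠ b →
    (∃ j : Fin 14, eM a b = dM j) ∨ eM a b = jM + dM 0 ∨ eM a b = jM + dM 1 ∨ eM a b = jM + dM 0 + dM 1 := by
  decide +kernel

theorem jM_sq : jM * jM = 1 := by decide +kernel

theorem jM_transpose : jMᵀ = jM := by decide +kernel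

end Cfsg.Agent.KnownA.G24
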