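import Cfsg.Agent.KnownA.G24.Rep

/-!
# Elements of order seven and thirteen act without fixed vectors
-/

set_option autoImplicit false

universe u

namespace Cfsg.Agent.KnownA.G24

open Cfsg.Lie Cfsg.Agent.Chev Finset
open scoped Matrix MatrixGroups

variable {F : Type u} [Field F] [CharP F 2]

/-- the alternating form preserved by the transposes -/
noncomputable def jf (v w : Fin 6 → F) : F := v ⬝ᵥ red jM *ᵥ w

theorem rho_form' (g : ↥(chevG2.group F)) :
    (rho F g : Matrix (Fin 6) (Fin 6) F)ᵀ * red jM * (rho F g : Matrix (Fin 6) (Fin 6) F) = red jM := by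
  set A := (rho F g : Matrix (Fin 6) (Fin 6) F) with hA
  have hJ : red (F := F) jM * red jM = 1 := by rw [← map_mul, jM_sq, map_one]
  have h1 : A * (red jM * Aᵀ * red jM) = 1 := by
    rw [← Matrix.mul_assoc, ← Matrix.mul_assoc, rho_form, hJ]
  have h2 := mul_eq_one_comm.1 h1
  have h3 := congrArg (red (F := F) jM * ·) h2
  simp only [Matrix.mul_one, Matrix.mul_assoc] at h3
  rw [← Matrix.mul_assoc (red jM) (red jM), hJ, Matrix.one_mul] at h3
  rw [Matrix.mul_assoc]
  exact h3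

theorem jf_map (g : ↥(chevG2.group F)) (v w : Fin 6 → F) :
    jf ((rho F g : Matrix (Fin 6) (Fin 6) F) *ᵥ v) ((rho F g : Matrix (Fin 6) (Fin 6) F) *ᵥ w) = jf v w := by
  conv_rhs => rw [jf, ← rho_form' g, ← Matrix.mulVec_mulVec, ← Matrix.mulVec_mulVec]
  rw [jf, Matrix.dotProduct_mulVec _ ((rho F g : Matrix (Fin 6) (Fin 6) F)ᵀ), Matrix.vecMul_transpose]

theorem jf_apply (v w : Fin 6 → F) :
    jf v w = v 0 * w 1 + v 1 * w 0 + v 2 * w 3 + v 3 * w 2 + v 4 * w 5 + v 5 * w 4 := by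
  have e : jM = Matrix.of fun i j => if (i, j) ∈ [((0 : Fin 6), (1 : Fin 6)), (1, 0), (2, 3), (3, 2), (4, 5), (5, 4)]
      then 1 else 0 := by decide +kernel
  simp [jf, dotProduct, Matrix.mulVec, Fin.sum_univ_six, red_entry, e]

theorem jf_self (v : Fin 6 → F) : jf v v = 0 := by
  rw [jf_apply]
  linear_combination (v 0 * v 1 + v 2 * v 3 + v 4 * v 5) * CharTwo.two_eq_zero (R := F)

theorem jf_comm (v w : Fin 6 → F) : jf v w = jf w v := by
  rw [jf_apply, jf_apply]; ring

theorem jf_add_left (u v w : Fin 6 → F) : jf (u + v) w = jf u w + jf v w := by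
  simp only [jf, add_dotProduct]

theorem jf_smul_left (c : F) (v w : Fin 6 → F) : jf (c • v) w = c * jf v w := by
  simp only [jf, smul_dotProduct, smul_eq_mul]

theorem jf_nondegenerate {w : Fin 6 → F} (h : ∀ v, jf v w = 0) : w = 0 := by
  funext i
  fin_cases i
  · simpa [jf_apply] using h (Pi.single 1 1)
  · simpa [jf_apply] using h (Pi.single 0 1)
  · simpa [jf_apply] using h (Pi.single 3 1)
  · simpa [jf_apply] using h (Pi.single 2 1)
  · simpa [jf_apply] using h (Pi.single 5 1)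
  · simpa [jf_apply] using h (Pi.single 4 1)

/-- the fixed vectors -/
noncomputable def fixSp (g : ↥(chevG2.group F)) : Submodule F (Fin 6 → F) :=
  LinearMap.ker (Matrix.toLin' ((rho F g : Matrix (Fin 6) (Fin 6) F) - 1))

theorem mem_fixSp {g : ↥(chevG2.group F)} {v : Fin 6 → F} :
    v ∈ fixSp g ↔ (rho F g : Matrix (Fin 6) (Fin 6) F) *ᵥ v = v := by
  rw [fixSp, LinearMap.mem_ker, Matrix.toLin'_apply, Matrix.sub_mulVec, Matrix.one_mulVec, sub_eq_zero]

theorem fixSp_ne_top {g : ↥(chevG2.group F)} (hg : g ≠ 1) : fixSp g ≠ ⊤ := by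
  intro h
  refine hg (rho_injective ?_)
  rw [map_one]
  refine Units.ext (Matrix.ext_iff_mulVec.2 fun v => ?_)
  rw [Units.val_one, Matrix.one_mulVec]
  exact mem_fixSp.1 (h ▸ Submodule.mem_top)

/-- An element of odd order has no three-dimensional space of fixed vectors. -/
theorem finrank_fixSp_ne_three {g : ↥(chevG2.group F)} {n : ℕ} (hn : g ^ n = 1) (hodd : Odd n) :
    Module.finrank F (fixSp g) ≠ 3 := by
  intro h3
  set A := (rho F g : Matrix (Fin 6) (Fin 6) F) with hA
  have hpow : A ^ n = 1 := by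
    rw [hA, ← Units.val_pow_eq_pow_val, ← map_pow, hn, map_one, Units.val_one]
  have horth : ∀ v w : Fin 6 → F, A *ᵥ w = w → jf (A *ᵥ v) w = jf v w := by
    intro v w hw
    conv_lhs => rw [← hw]
    exact jf_map g v w
  have horth' : ∀ (k : ℕ) (v w : Fin 6 → F), A *ᵥ w = w → jf (A ^ k *ᵥ v) w = jf v w := by
    intro k v w hw
    induction k with
    | zero => simp
    | succ k ih => rw [pow_succ', ← Matrix.mulVec_mulVec, horth _ _ hw, ih]
  -- the sum over the orbit of a vector is fixed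
  have hsum : ∀ v : Fin 6 → F, (∑ i ∈ range n, A ^ i *ᵥ v) ∈ fixSp g := by
    intro v
    rw [mem_fixSp, ← hA, Matrix.mulVec_sum]
    have : ∀ i, A *ᵥ (A ^ i *ᵥ v) = A ^ (i + 1) *ᵥ v := fun i => by rw [Matrix.mulVec_mulVec, pow_succ']
    simp only [this]
    have h1 := sum_range_succ (fun i => A ^ i *ᵥ v) n
    rw [sum_range_succ', hpow, pow_zero, Matrix.one_mulVec] at h1
    exact add_right_cancel h1
  have hjsum : ∀ (v w : Fin 6 → F), A *ᵥ w = w → jf (∑ i ∈ range n, A ^ i *ᵥ v) w = jf v w := by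
    intro v w hw
    have e : jf (∑ i ∈ range n, A ^ i *ᵥ v) w = ∑ i ∈ range n, jf (A ^ i *ᵥ v) w := by
      simp only [jf, sum_dotProduct]
    rw [e, sum_congr rfl fun i _ => horth' i v w hw, sum_const, card_range, nsmul_eq_mul]
    obtain ⟨k, rfl⟩ := hodd
    push_cast
    rw [CharTwo.two_eq_zero, zero_mul, zero_add, one_mul]
  have hrad : ∀ w ∈ fixSp g, (∀ v ∈ fixSp g, jf v w = 0) → w = 0 := by
    intro w hw h
    refine jf_nondegenerate fun v => ?_
    rw [← hjsum v w (mem_fixSp.1 hw)]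
    exact h _ (hsum v)
  obtain ⟨b⟩ : Nonempty (Module.Basis (Fin 3) F (fixSp g)) := ⟨Module.finBasisOfFinrankEq F _ h3⟩
  have hexp : ∀ v ∈ fixSp g, ∃ c : Fin 3 → F, v = c 0 • (b 0 : Fin 6 → F) + c 1 • (b 1 : Fin 6 → F) +
      c 2 • (b 2 : Fin 6 → F) := by
    intro v hv
    refine ⟨fun i => b.repr ⟨v, hv⟩ i, ?_⟩
    have := congrArg Subtype.val (b.sum_repr ⟨v, hv⟩)
    simp only [Fin.sum_univ_three, Submodule.coe_add, Submodule.coe_smul] at this
    exact this.symm
  set x := jf (b 0 : Fin 6 → F) (b 1 : Fin 6 → F) with hx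
  set y := jf (b 0 : Fin 6 → F) (b 2 : Fin 6 → F) with hy
  set z := jf (b 1 : Fin 6 → F) (b 2 : Fin 6 → F) with hz
  have hw0 : z • b 0 + y • b 1 + x • b 2 = 0 := by
    refine Subtype.ext (hrad _ (z • b 0 + y • b 1 + x • b 2).2 fun v hv => ?_)
    obtain ⟨c, rfl⟩ := hexp v hv
    rw [jf_comm]
    simp only [Submodule.coe_add, Submodule.coe_smul, jf_add_left, jf_smul_left]
    rw [jf_comm (b 0 : Fin 6 → F) (c 0 • _ + _ + _), jf_comm (b 1 : Fin 6 → F) (c 0 • _ + _ + _),
      jf_comm (b 2 : Fin 6 → F) (c 0 • _ + _ + _)]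
    simp only [jf_add_left, jf_smul_left, jf_self, jf_comm (b 1 : Fin 6 → F) (b 0), jf_comm (b 2 : Fin 6 → F) (b 0),
      jf_comm (b 2 : Fin 6 → F) (b 1), ← hx, ← hy, ← hz]
    linear_combination (c 0 * x * y + c 1 * x * z + c 2 * y * z) * CharTwo.two_eq_zero (R := F)
  have hli := Fintype.linearIndependent_iff.1 b.linearIndependent ![z, y, x] (by
    simpa [Fin.sum_univ_three] using hw0)
  have hz0 : z = 0 := by simpa using hli 0
  have hy0 : y = 0 := by simpa using hli 1
  have hx0 : x = 0 := by simpa using hli 2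
  refine b.ne_zero 0 (Subtype.ext (hrad _ (b 0).2 fun v hv => ?_))
  obtain ⟨c, rfl⟩ := hexp v hv
  simp only [jf_add_left, jf_smul_left, jf_self, jf_comm (b 1 : Fin 6 → F) (b 0), jf_comm (b 2 : Fin 6 → F) (b 0),
    ← hx, ← hy, hx0, hy0]
  ring

/-- The action on vectors. -/
theorem fixSp_eq_bot [Fintype F] (hF : Fintype.card F = 4) {g : ↥(chevG2.group F)}
    (hg : orderOf g = 7 ∨ orderOf g = 13) : fixSp g = ⊥ := by
  classical
  obtain ⟨p, hp, hgp, hp7⟩ : ∃ p, p.Prime ∧ orderOf g = p ∧ (p = 7 ∨ p = 13) := by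
    rcases hg with h | h
    exacts [⟨7, by norm_num, h, Or.inl rfl⟩, ⟨13, by norm_num, h, Or.inr rfl⟩]
  have hg1 : g ≠ 1 := fun e => hp.ne_one (by rw [← hgp, e, orderOf_one])
  let Z := Subgroup.zpowers g
  have hZ : IsPGroup p Z := IsPGroup.of_card (n := 1) (by rw [Nat.card_zpowers, hgp, pow_one])
  let _ : MulAction Z (Fin 6 → F) :=
    { smul := fun x v => (rho F (x : ↥(chevG2.group F)) : Matrix (Fin 6) (Fin 6) F) *ᵥ v
      one_smul := fun v => by
        show (rho F ((1 : Z) : ↥(chevG2.group F)) : Matrix (Fin 6) (Fin 6) F) *ᵥ v = v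
        simp
      mul_smul := fun x y v => by
        show (rho F ((x * y : Z) : ↥(chevG2.group F)) : Matrix (Fin 6) (Fin 6) F) *ᵥ v =
          (rho F (x : ↥(chevG2.group F)) : Matrix (Fin 6) (Fin 6) F) *ᵥ
            ((rho F (y : ↥(chevG2.group F)) : Matrix (Fin 6) (Fin 6) F) *ᵥ v)
        simp [Matrix.mulVec_mulVec] }
  have : Fact p.Prime := ⟨hp⟩
  have hmod := hZ.card_modEq_card_fixedPoints (Fin 6 → F)
  have hfix : Nat.card (MulAction.fixedPoints Z (Fin 6 → F)) = Nat.card (fixSp g) := by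
    refine Nat.card_congr (Equiv.subtypeEquivRight fun v => ⟨fun h => mem_fixSp.2 (h ⟨g, Subgroup.mem_zpowers g⟩),
      fun h x => ?_⟩)
    obtain ⟨x, k, rfl⟩ := x
    show (rho F (g ^ k) : Matrix (Fin 6) (Fin 6) F) *ᵥ v = v
    induction k using Int.induction_on with
    | zero => simp
    | succ i ih => rw [zpow_add_one, map_mul, Units.val_mul, ← Matrix.mulVec_mulVec, mem_fixSp.1 h, ih]
    | pred i ih =>
      conv_rhs => rw [← ih]
      conv_lhs => rw [← mem_fixSp.1 h]
      rw [Matrix.mulVec_mulVec, ← Units.val_mul, ← map_mul, zpow_sub_one, inv_mul_cancel_right]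
  rw [hfix, Module.natCard_eq_pow_finrank (K := F) (V := fixSp g),
    Module.natCard_eq_pow_finrank (K := F) (V := Fin 6 → F), Module.finrank_fin_fun,
    Nat.card_eq_fintype_card, hF] at hmod
  have hlt : Module.finrank F (fixSp g) < 6 := by
    have := Submodule.finrank_lt (fixSp_ne_top hg1)
    simpa [Module.finrank_fin_fun] using this
  have h3 := finrank_fixSp_ne_three (g := g) (n := p) (by rw [← hgp, pow_orderOf_eq_one])
    (by rcases hp7 with rfl | rfl <;> decide)
  refine Submodule.finrank_eq_zero.1 ?_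
  generalize Module.finrank F (fixSp g) = d at hmod hlt h3
  rcases hp7 with rfl | rfl <;> interval_cases d <;> simp_all [Nat.ModEq]

end Cfsg.Agent.KnownA.G24
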