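import Cfsg.Agent.KnownA.G24.Fix
import Cfsg.Agent.Chev.OrdersByType

/-!
# Groups of unbounded order with the prime graph of `G₂(4)`
-/

set_option autoImplicit false

universe u v

namespace Cfsg.Agent.KnownA.G24

open Cfsg.Lie Cfsg.Agent.Chev
open scoped Matrix MatrixGroups

/-- Extending by an elementary abelian two-group on which elements of order seven and thirteen act without
fixed points. -/
theorem extension_two {G : Type u} [Group G] [Finite G] {V : Type v} [CommGroup V] [Finite V] (act : G →* MulAut V)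
    (hV : ∀ v : V, v ^ 2 = 1) (hprimes : ∀ p : ℕ, p.Prime → p ∣ Nat.card G → p = 2 ∨ p = 3 ∨ p = 5 ∨ p = 7 ∨ p = 13)
    (h2 : 2 ∣ Nat.card G) (h6 : ∃ g : G, orderOf g = 2 * 3) (h10 : ∃ g : G, orderOf g = 2 * 5)
    (hfix : ∀ g : G, orderOf g = 7 ∨ orderOf g = 13 → ∀ v : V, act g v = v → v = 1) (N : ℕ) (hN : N < Nat.card V) :
    ∃ (H : Type) (_ : Group H) (_ : Finite H), N < Nat.card H ∧
      ((∀ p : ℕ, p.Prime → (p ∣ Nat.card G ↔ p ∣ Nat.card H)) ∧
      (∀ p q : ℕ, p.Prime → q.Prime → p ≠ q → ((∃ g : G, orderOf g = p * q) ↔ (∃ g : H, orderOf g = p * q)))) := by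
  haveI : Finite (V ⋊[act] G) := Finite.of_equiv _ SemidirectProduct.equivProd.symm
  obtain ⟨H, iG, _, ⟨e⟩⟩ := Finite.exists_type_univ_nonempty_mulEquiv.{_, 0} (V ⋊[act] G)
  have hcard : Nat.card H = Nat.card V * Nat.card G := by
    rw [← Nat.card_congr e.toEquiv, Nat.card_congr SemidirectProduct.equivProd, Nat.card_prod]
  refine ⟨H, iG, inferInstance, ?_, fun p hp => ⟨fun h => hcard ▸ h.mul_left _, fun h => ?_⟩, fun p q hp hq hne => ⟨?_, ?_⟩⟩
  · rw [hcard]
    exact lt_of_lt_of_le hN (Nat.le_mul_of_pos_right _ Nat.card_pos)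
  · rw [hcard] at h
    rcases hp.dvd_mul.1 h with h' | h'
    · haveI : Fact p.Prime := ⟨hp⟩
      obtain ⟨v, hv⟩ := exists_prime_orderOf_dvd_card' p h'
      have : p ∣ 2 := hv ▸ orderOf_dvd_of_pow_eq_one (hV v)
      rwa [(Nat.prime_dvd_prime_iff_eq hp Nat.prime_two).1 this]
    · exact h'
  · rintro ⟨g, hg⟩
    exact ⟨e (SemidirectProduct.inr g),
      by rw [MulEquiv.orderOf_eq, orderOf_injective _ SemidirectProduct.inr_injective, hg]⟩
  rintro ⟨x', hx'⟩
  obtain ⟨x, rfl⟩ := e.surjective x'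
  rw [MulEquiv.orderOf_eq] at hx'
  have hright : ∀ n : ℕ, (x ^ n).right = x.right ^ n := fun n => by
    rw [← SemidirectProduct.rightHom_eq_right, map_pow]
  have hgd : orderOf x.right ∣ p * q := hx' ▸ orderOf_map_dvd SemidirectProduct.rightHom x
  have hxd : p * q ∣ orderOf x.right * 2 := by
    rw [← hx']
    apply orderOf_dvd_of_pow_eq_one
    rw [pow_mul]
    have hl : x ^ orderOf x.right = SemidirectProduct.inl (x ^ orderOf x.right).left :=
      SemidirectProduct.ext (by simp) (by simp [hright, pow_orderOf_eq_one])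
    rw [hl, ← map_pow, hV, map_one]
  have hcases : orderOf x.right = 1 ∨ orderOf x.right = p ∨ orderOf x.right = q ∨ orderOf x.right = p * q := by
    obtain ⟨a, b, ha, hb, he⟩ := exists_dvd_and_dvd_of_dvd_mul hgd
    rcases (Nat.dvd_prime hp).1 ha with rfl | rfl <;> rcases (Nat.dvd_prime hq).1 hb with rfl | rfl <;>
      simp [he]
  have key : ∀ s : ℕ, s.Prime → s ≠ 2 → orderOf x.right = s → orderOf x = 2 * s → ∃ g : G, orderOf g = 2 * s := by
    intro s hs hs2 hgs hxs
    rcases hprimes s hs (hgs ▸ orderOf_dvd_natCard x.right) with rfl | h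
    · exact absurd rfl hs2
    rcases h with rfl | rfl | h
    · exact h6
    · exact h10
    exfalso
    have hxs1 : x ^ s ≠ 1 := fun e1 => by
      have h := Nat.le_of_dvd hs.pos (orderOf_dvd_of_pow_eq_one e1)
      rw [hxs] at h
      have := hs.two_le
      omega
    have hr : (x ^ s).right = 1 := by rw [hright, ← hgs, pow_orderOf_eq_one]
    have hl : (x ^ s).left = 1 := by
      refine hfix x.right (hgs.symm ▸ h) _ ?_
      have hc := congrArg SemidirectProduct.left (Commute.pow_self x s).eq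
      rw [SemidirectProduct.mul_left, SemidirectProduct.mul_left, hr, map_one, MulAut.one_apply,
        mul_comm (x.left)] at hc
      exact (mul_right_cancel hc).symm
    exact hxs1 (SemidirectProduct.ext hl hr)
  have hq2 : ∀ a b : ℕ, a.Prime → b.Prime → a * b ∣ a * 2 → b = 2 := fun a b ha hb h =>
    (Nat.prime_dvd_prime_iff_eq hb Nat.prime_two).1 (Nat.dvd_of_mul_dvd_mul_left ha.pos h)
  rcases hcases with h | h | h | h
  · rw [h, one_mul] at hxd
    have h1 := (Nat.prime_dvd_prime_iff_eq hp Nat.prime_two).1 (dvd_trans (dvd_mul_right p q) hxd)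
    have h2' := (Nat.prime_dvd_prime_iff_eq hq Nat.prime_two).1 (dvd_trans (dvd_mul_left q p) hxd)
    exact absurd (h1.trans h2'.symm) hne
  · rw [h] at hxd
    obtain rfl := hq2 p q hp hq hxd
    obtain ⟨g', hg'⟩ := key p hp hne h (by rw [hx', mul_comm])
    exact ⟨g', by rw [hg', mul_comm]⟩
  · rw [h, mul_comm p q] at hxd
    obtain rfl := hq2 q p hq hp hxd
    exact key q hq (Ne.symm hne) h hx'
  · exact ⟨x.right, h⟩

/-- Elements of order six and ten, as pairs `P + ωQ` of matrices over `ℤ/2`. -/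
def pmul (p q : M2 × M2) : M2 × M2 := (p.1 * q.1 + p.2 * q.2, p.1 * q.2 + p.2 * q.1 + p.2 * q.2)

/-- the matrix of `x₆(1)` -/
def x6M : M2 × M2 := (1 + pm (aP 6) + pm (bP 6), 0)

/-- an element of order three commuting with `x₆(1)` -/
def h3M : M2 × M2 := pmul (1 + pm (aP 9) + pm (bP 9), 0) (1 + pm (aP 2) + pm (bP 2), 0)

/-- an element of order five commuting with `x₆(1)` -/
def h5M : M2 × M2 := pmul (1 + pm (aP 9) + pm (bP 9), 0) (1 + pm (bP 2), pm (aP 2) + pm (bP 2))

/-- the square of `h5M` -/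
def h5M2 : M2 × M2 :=
  (pm [(0, 0), (0, 3), (2, 1), (2, 2), (5, 4)],
    pm [(0, 0), (0, 3), (1, 2), (2, 1), (2, 2), (3, 0), (4, 4), (4, 5), (5, 4)])

/-- the fourth power of `h5M` -/
def h5M4 : M2 × M2 :=
  (pm [(0, 0), (1, 1), (1, 2), (2, 2), (3, 0), (3, 3), (4, 5), (5, 4), (5, 5)],
    pm [(0, 0), (0, 3), (2, 1), (2, 2), (4, 4), (4, 5)])

theorem orderData : pmul x6M x6M = (1, 0) ∧ pmul x6M h3M = pmul h3M x6M ∧ pmul x6M h5M = pmul h5M x6M ∧
    pmul (pmul h3M h3M) h3M = (1, 0) ∧ pmul h5M h5M = h5M2 ∧ pmul h5M2 h5M2 = h5M4 ∧ pmul h5M4 h5M = (1, 0) ∧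
    x6M ≠ (1, 0) ∧ h3M ≠ (1, 0) ∧ h5M ≠ (1, 0) := by
  refine ⟨?_, ?_, ?_, ?_, ?_, ?_, ?_, ?_, ?_, ?_⟩ <;> decide +kernel

section
variable {F : Type u} [Field F] [CharP F 2]

/-- evaluation of a pair -/
noncomputable def ev (w : F) (p : M2 × M2) : Matrix (Fin 6) (Fin 6) F := red p.1 + w • red p.2

theorem ev_pmul {w : F} (hw : w * w = w + 1) (p q : M2 × M2) : ev w (pmul p q) = ev w p * ev w q := by
  simp only [ev, pmul, map_add, map_mul, Matrix.add_mul, Matrix.mul_add, Matrix.smul_mul, Matrix.mul_smul,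
    smul_add, smul_smul, hw, add_smul, one_smul]
  abel

theorem ev_injective {w : F} (h0 : w ≠ 0) (h1 : w ≠ 1) : Function.Injective (ev w) := by
  intro p q h
  have key : ∀ a b c d : ZMod 2, ZMod.castHom (dvd_refl 2) F a + w * ZMod.castHom (dvd_refl 2) F b =
      ZMod.castHom (dvd_refl 2) F c + w * ZMod.castHom (dvd_refl 2) F d → a = c ∧ b = d := by
    have c2 : ∀ a : ZMod 2, a = 0 ∨ a = 1 := by decide
    have hw1 : w + 1 ≠ 0 := fun e => h1 (by linear_combination e - CharTwo.two_eq_zero (R := F))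
    intro a b c d e
    rcases c2 a with rfl | rfl <;> rcases c2 b with rfl | rfl <;> rcases c2 c with rfl | rfl <;>
      rcases c2 d with rfl | rfl <;> simp only [map_zero, map_one, mul_zero, mul_one, zero_add, add_zero] at e <;>
      first
      | exact ⟨rfl, rfl⟩
      | exfalso; first
        | exact h0 e | exact h0 e.symm | exact h1 e | exact h1 e.symm | exact one_ne_zero e | exact one_ne_zero e.symm
        | exact hw1 (by linear_combination e) | exact hw1 (by linear_combination -e)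
        | exact one_ne_zero (α := F) (by linear_combination e) | exact one_ne_zero (α := F) (by linear_combination -e)
        | exact h0 (by linear_combination e) | exact h0 (by linear_combination -e)
  refine Prod.ext (Matrix.ext fun i j => ?_) (Matrix.ext fun i j => ?_)
  · exact (key _ _ _ _ (congrFun (congrFun h i) j)).1
  · exact (key _ _ _ _ (congrFun (congrFun h i) j)).2

theorem exists_omega [Fintype F] (hF : Fintype.card F = 4) : ∃ w : F, w ≠ 0 ∧ w ≠ 1 ∧ w * w = w + 1 := by
  classical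
  obtain ⟨w, hw⟩ : ∃ w : F, w ∉ ({0, 1} : Finset F) := by
    by_contra! h
    have h2 := Finset.card_le_card (show Finset.univ ⊆ ({0, 1} : Finset F) from fun x _ => h x)
    have h3 := Finset.card_le_two (a := (0 : F)) (b := 1)
    rw [Finset.card_univ, hF] at h2
    omega
  simp only [Finset.mem_insert, Finset.mem_singleton, not_or] at hw
  refine ⟨w, hw.1, hw.2, ?_⟩
  have h3 := FiniteField.pow_card_sub_one_eq_one w hw.1
  rw [hF] at h3
  have h := mul_eq_zero.1 (show (w - 1) * (w * w + w + 1) = 0 by norm_num at h3; linear_combination h3)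
  rcases h with h | h
  · exact absurd (sub_eq_zero.1 h) hw.2
  · linear_combination h - (w + 1) * CharTwo.two_eq_zero (R := F)

theorem exists_orders [Fintype F] (hF : Fintype.card F = 4) :
    (∃ g : ↥(chevG2.group F), orderOf g = 2 * 3) ∧ ∃ g : ↥(chevG2.group F), orderOf g = 2 * 5 := by
  obtain ⟨d1, d2, d3, d4, d5, d6, d7, d8, d9, d10⟩ := orderData
  obtain ⟨w, hw0, hw1, hw⟩ := exists_omega hF
  have hev : Function.Injective (ev (F := F) w) := ev_injective hw0 hw1
  have hone : ev w ((1 : M2), (0 : M2)) = 1 := by simp [ev]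
  have mk : ∀ (r : Fin 12) (t : F), ∃ g : ↥(chevG2.group F),
      (rho F g : Matrix (Fin 6) (Fin 6) F) = xS r t := by
    intro r t
    obtain ⟨C⟩ := Cfsg.Agent.Chev.nonempty_cert.{u} (D := chevG2) (by simp)
    have hx : (C.xu r t : Matrix chevG2.Idx chevG2.Idx F) = chevG2.xMat F r t := by
      rw [C.coe_xu, ChevalleyDatum.x, dif_pos (show (r : ℕ) < chevG2.nroots from r.isLt)]
      rfl
    exact ⟨⟨C.xu r t, C.xu_mem_group _ _⟩, by rw [rho_gen r t _ hx]; rfl⟩
  obtain ⟨g6, e6⟩ := mk 6 1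
  obtain ⟨g9, e9⟩ := mk 9 1
  obtain ⟨g2, e2⟩ := mk 2 1
  obtain ⟨g2w, e2w⟩ := mk 2 w
  have hxS : ∀ r : Fin 12, xS r (1 : F) = ev w (1 + pm (aP r) + pm (bP r), 0) := fun r => by
    simp [xS, ev]
  have E6 : (rho F g6 : Matrix (Fin 6) (Fin 6) F) = ev w x6M := e6.trans (hxS 6)
  have E3 : (rho F (g9 * g2) : Matrix (Fin 6) (Fin 6) F) = ev w h3M := by
    rw [map_mul, Units.val_mul, e9, e2, hxS, hxS, h3M, ev_pmul hw]
  have E5 : (rho F (g9 * g2w) : Matrix (Fin 6) (Fin 6) F) = ev w h5M := by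
    rw [map_mul, Units.val_mul, e9, e2w, hxS, h5M, ev_pmul hw]
    congr 1
    simp only [xS, ev, map_add, map_one, pow_two, hw, add_smul, one_smul, smul_add]
    abel
  have hinj : ∀ g h : ↥(chevG2.group F), (rho F g : Matrix (Fin 6) (Fin 6) F) = rho F h → g = h :=
    fun g h e => rho_injective (Units.ext e)
  have ne : ∀ {g : ↥(chevG2.group F)} {p : M2 × M2}, (rho F g : Matrix (Fin 6) (Fin 6) F) = ev w p →
      p ≠ (1, 0) → g ≠ 1 := fun {g p} e hp e1 => hp (hev (by rw [← e, hone, e1]; simp))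
  have o2 : orderOf g6 = 2 := by
    have : Fact (Nat.Prime 2) := ⟨Nat.prime_two⟩
    refine orderOf_eq_prime (hinj _ _ ?_) (ne E6 d8)
    rw [pow_two, map_mul, Units.val_mul, E6, ← ev_pmul hw, d1, hone]; simp
  have o3 : orderOf (g9 * g2) = 3 := by
    have : Fact (Nat.Prime 3) := ⟨Nat.prime_three⟩
    refine orderOf_eq_prime (hinj _ _ ?_) (ne E3 d9)
    rw [pow_three', map_mul, Units.val_mul, map_mul (rho F) (g9 * g2) (g9 * g2), Units.val_mul, E3, ← ev_pmul hw,
      ← ev_pmul hw, d4, hone]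
    simp
  have o5 : orderOf (g9 * g2w) = 5 := by
    have : Fact (Nat.Prime 5) := ⟨by norm_num⟩
    refine orderOf_eq_prime (hinj _ _ ?_) (ne E5 d10)
    have e : ∀ g : ↥(chevG2.group F), g ^ 5 = ((g * g) * (g * g)) * g := fun g => by
      simp only [pow_succ, pow_zero, one_mul, mul_assoc]
    rw [e]
    generalize hg : g9 * g2w = g at E5 ⊢
    rw [map_mul, map_mul, map_mul, Units.val_mul, Units.val_mul, Units.val_mul, E5, ← ev_pmul hw, d5, ← ev_pmul hw,
      d6, ← ev_pmul hw, d7, hone]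
    simp
  have c3 : Commute g6 (g9 * g2) := hinj _ _ (by
    rw [map_mul (rho F) g6, map_mul (rho F) (g9 * g2) g6, Units.val_mul, Units.val_mul, E6, E3, ← ev_pmul hw, ← ev_pmul hw, d2])
  have c5 : Commute g6 (g9 * g2w) := hinj _ _ (by
    rw [map_mul (rho F) g6, map_mul (rho F) (g9 * g2w) g6, Units.val_mul, Units.val_mul, E6, E5, ← ev_pmul hw, ← ev_pmul hw, d3])
  exact ⟨⟨g6 * (g9 * g2), by rw [c3.orderOf_mul_eq_mul_orderOf_of_coprime (by rw [o2, o3]; norm_num), o2, o3]⟩,
    ⟨g6 * (g9 * g2w), by rw [c5.orderOf_mul_eq_mul_orderOf_of_coprime (by rw [o2, o5]; norm_num), o2, o5]⟩⟩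

end

/-- The action on copies of the module. -/
noncomputable def vAct (F : Type u) [Field F] [CharP F 2] (N : ℕ) :
    ↥(chevG2.group F) →* MulAut (Multiplicative (Fin (N + 1) → Fin 6 → F)) where
  toFun g :=
    { toFun := fun v => Multiplicative.ofAdd fun k => (rho F g : Matrix (Fin 6) (Fin 6) F) *ᵥ v.toAdd k
      invFun := fun v => Multiplicative.ofAdd fun k => (rho F g⁻¹ : Matrix (Fin 6) (Fin 6) F) *ᵥ v.toAdd k
      left_inv := fun v => by
        apply Multiplicative.toAdd.injective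
        funext k
        simp [Matrix.mulVec_mulVec]
      right_inv := fun v => by
        apply Multiplicative.toAdd.injective
        funext k
        simp [Matrix.mulVec_mulVec]
      map_mul' := fun u v => by
        apply Multiplicative.toAdd.injective
        funext k
        simp [Matrix.mulVec_add] }
  map_one' := by
    refine MulEquiv.ext fun v => Multiplicative.toAdd.injective (funext fun k => ?_)
    simp
  map_mul' g h := by
    refine MulEquiv.ext fun v => Multiplicative.toAdd.injective (funext fun k => ?_)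
    simp [Matrix.mulVec_mulVec]

/-- The statement. -/
theorem unbounded_same_graph {F : Type*} [Field F] [Fintype F] (hF : Fintype.card F = 4) (N : ℕ) :
    ∃ (H : Type) (_ : Group H) (_ : Finite H), N < Nat.card H ∧
      ((∀ p : ℕ, p.Prime → (p ∣ Nat.card ↥(chevG2.group F) ↔ p ∣ Nat.card H)) ∧
      (∀ p q : ℕ, p.Prime → q.Prime → p ≠ q → ((∃ g : ↥(chevG2.group F), orderOf g = p * q) ↔ (∃ g : H, orderOf g = p * q)))) := by
  classical
  haveI : CharP F 2 := charP_of_card_eq_prime_pow (f := 2) (by rw [hF]; norm_num)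
  have hord : Nat.card ↥(chevG2.group F) = 251596800 := by rw [orderG2 hF]; norm_num
  haveI : Finite ↥(chevG2.group F) := Nat.finite_of_card_ne_zero (by rw [hord]; norm_num)
  obtain ⟨h6, h10⟩ := exists_orders (F := F) hF
  refine extension_two (vAct F N) (fun v => ?_) (fun p hp hd => ?_) (by rw [hord]; norm_num) h6 h10
    (fun g hg v hv => ?_) N ?_
  · apply Multiplicative.toAdd.injective
    funext k i
    rw [toAdd_pow, toAdd_one, two_nsmul]
    exact CharTwo.add_self_eq_zero _
  · rw [hord, show (251596800 : ℕ) = 2 ^ 12 * 3 ^ 3 * 5 ^ 2 * 7 * 13 by norm_num] at hd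
    simp only [Nat.Prime.dvd_mul hp] at hd
    have hh : ∀ {a k : ℕ}, a.Prime → p ∣ a ^ k → p = a := fun ha h =>
      (Nat.prime_dvd_prime_iff_eq hp ha).1 (hp.dvd_of_dvd_pow h)
    rcases hd with (((h | h) | h) | h) | h
    · exact Or.inl (hh Nat.prime_two h)
    · exact Or.inr (Or.inl (hh Nat.prime_three h))
    · exact Or.inr (Or.inr (Or.inl (hh (by norm_num) h)))
    · exact Or.inr (Or.inr (Or.inr (Or.inl ((Nat.prime_dvd_prime_iff_eq hp (by norm_num)).1 h))))
    · exact Or.inr (Or.inr (Or.inr (Or.inr ((Nat.prime_dvd_prime_iff_eq hp (by norm_num)).1 h))))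
  · apply Multiplicative.toAdd.injective
    funext k
    have h := congrFun (congrArg Multiplicative.toAdd hv) k
    have hm : v.toAdd k ∈ fixSp g := mem_fixSp.2 h
    rw [fixSp_eq_bot hF hg, Submodule.mem_bot] at hm
    exact hm
  · rw [Nat.card_congr Multiplicative.toAdd, Nat.card_fun, Nat.card_fun, Nat.card_fin, Nat.card_fin,
      Nat.card_eq_fintype_card, hF, ← pow_mul]
    exact lt_of_lt_of_le (Nat.lt_pow_self (by norm_num : 1 < 4))
      (Nat.pow_le_pow_right (by norm_num) (by omega))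

end Cfsg.Agent.KnownA.G24
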