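import Cfsg.Agent.KnownA.G24.Data

/-!
# The six-dimensional representation of `G₂(F)` for a field of characteristic two
-/

set_option autoImplicit false

universe u

namespace Cfsg.Agent.KnownA.G24

open Cfsg.Lie Cfsg.Agent.Chev
open scoped Matrix MatrixGroups

variable {F : Type u} [Field F] [CharP F 2]

/-- reduction into the field -/
noncomputable def red : M2 →+* Matrix (Fin 6) (Fin 6) F := (ZMod.castHom (dvd_refl 2) F).mapMatrix

theorem red_transpose (M : M2) : red (F := F) Mᵀ = (red M)ᵀ := rfl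

theorem red_zsmul (z : ℤ) (M : M2) : red (F := F) ((z : ZMod 2) • M) = (z : F) • red M := by
  ext i j
  simp [red]

theorem red_entry (M : M2) (i j : Fin 6) : red (F := F) M i j = ZMod.castHom (dvd_refl 2) F (M i j) := rfl

/-- the matrix of a root element on the six-dimensional module -/
noncomputable def xS (r : Fin 12) (t : F) : Matrix (Fin 6) (Fin 6) F :=
  1 + t • red (pm (aP r)) + t ^ 2 • red (pm (bP r))

theorem two_smul_eq_zero (t : F) : t + t = 0 := CharTwo.add_self_eq_zero t

theorem xS_sq (r : Fin 12) (t : F) : xS r t * xS r t = 1 := by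
  obtain ⟨h1, h2, h3, h4⟩ := nilData r
  rw [← pm_mul] at h1 h2 h3 h4
  have e1 := congrArg (red (F := F)) h1
  have e2 := congrArg (red (F := F)) h2
  have e3 := congrArg (red (F := F)) h3
  have e4 := congrArg (red (F := F)) h4
  simp only [map_mul, map_zero] at e1 e2 e3 e4
  simp only [xS, Matrix.add_mul, Matrix.mul_add, Matrix.one_mul, Matrix.mul_one, Matrix.smul_mul,
    Matrix.mul_smul, e1, e2, e3, e4, smul_zero, add_zero]
  have hsum : ∀ A : Matrix (Fin 6) (Fin 6) F, A + A = 0 := fun A => by
    ext i j; exact two_smul_eq_zero _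
  generalize t • red (F := F) (pm (aP r)) = A
  generalize t ^ 2 • red (F := F) (pm (bP r)) = B
  calc (1 + A + B + A + B : Matrix (Fin 6) (Fin 6) F) = 1 + (A + A) + (B + B) := by abel
    _ = 1 := by rw [hsum, hsum, add_zero, add_zero]

/-- a root element on the six-dimensional module -/
noncomputable def xG (r : Fin 12) (t : F) : GL (Fin 6) F := ⟨xS r t, xS r t, xS_sq r t, xS_sq r t⟩

/-- the linear map from the Chevalley algebra to alternating matrices -/
noncomputable def pim (v : chevG2.Idx → F) : Matrix (Fin 6) (Fin 6) F := ∑ j, v j • red (dM (idxN chevG2 j))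

theorem pim_add (v w : chevG2.Idx → F) : pim (v + w) = pim v + pim w := by
  simp [pim, add_smul, Finset.sum_add_distrib]

theorem pim_smul (c : F) (v : chevG2.Idx → F) : pim (c • v) = c • pim v := by
  simp [pim, mul_smul, Finset.smul_sum]

theorem pim_single (j : chevG2.Idx) : pim (Pi.single j (1 : F)) = red (dM (idxN chevG2 j)) := by
  classical
  simp [pim, Pi.single_apply, ite_smul]

theorem pim_entryVal (L : List (ℕ × ℤ)) :
    pim (fun k => (entryVal L (idxN chevG2 k) : F)) = red (lin L) := by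
  induction L with
  | nil => simp [pim, entryVal, lin]
  | cons q L ih =>
    have hq : pim (fun k => if q.1 = idxN chevG2 k then (q.2 : F) else 0) =
        red ((q.2 : ZMod 2) • dM q.1) := by
      rw [red_zsmul]
      by_cases h : q.1 < 14
      · obtain ⟨k₀, hk⟩ := exists_idxN chevG2 (show q.1 < chevG2.rank + chevG2.nroots from h)
        rw [pim, Finset.sum_eq_single k₀]
        · simp [hk]
        · intro k _ hne
          rw [if_neg (fun e => hne (idxN_inj chevG2 (by rw [← e, hk]))), zero_smul]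
        · simp
      · rw [pim, Finset.sum_eq_zero fun k _ => by
          rw [if_neg (fun e => h (by rw [e]; exact idxN_lt chevG2 k)), zero_smul]]
        simp [dM, h]
    have : (fun k => (entryVal (q :: L) (idxN chevG2 k) : F)) =
        (fun k => if q.1 = idxN chevG2 k then (q.2 : F) else 0) + fun k => (entryVal L (idxN chevG2 k) : F) := by
      funext k
      simp [entryVal]
    rw [this, pim_add, hq, ih, ← map_add]
    simp [lin]

theorem xS_congr (r : Fin 12) (t : F) (M : M2) {c1 c2 c3 : M2}
    (h1 : lmul (aP r) M + rmul M (aP r) = c1)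
    (h2 : lmul (bP r) M + rmul M (bP r) + rmul (lmul (aP r) M) (aP r) = c2)
    (h3 : rmul (lmul (aP r) M) (bP r) + rmul (lmul (bP r) M) (aP r) = c3)
    (h4 : rmul (lmul (bP r) M) (bP r) = 0) :
    xS r t * red M * (xS r t)ᵀ = red M + t • red c1 + t ^ 2 • red c2 + t ^ 3 • red c3 := by
  rw [← h1, ← h2, ← h3]
  have h4' := congrArg (red (F := F)) h4
  simp only [← pm_mul, ← mul_pmT, map_mul, map_add, map_zero, red_transpose] at h4' ⊢
  simp only [xS, Matrix.transpose_add, Matrix.transpose_smul, Matrix.transpose_one, Matrix.add_mul,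
    Matrix.mul_add, Matrix.one_mul, Matrix.mul_one, Matrix.smul_mul, Matrix.mul_smul, smul_add, smul_smul,
    h4', smul_zero, add_zero]
  module

theorem congr_gen (r : Fin 12) (t : F) (j : chevG2.Idx) :
    xS r t * red (dM (idxN chevG2 j)) * (xS r t)ᵀ = pim (fun k => chevG2.xMat F r t k j) := by
  have hj : idxN chevG2 j < 14 := idxN_lt chevG2 j
  obtain ⟨d1, d2, d3, d4⟩ := congrData r ⟨idxN chevG2 j, hj⟩
  rw [xS_congr r t _ d1 d2 d3 d4]
  have e : (fun k => chevG2.xMat F r t k j) = Pi.single j 1 +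
      (t • fun k => (entryVal (colA chevG2 r 1 (idxN chevG2 j)) (idxN chevG2 k) : F)) +
      ((t ^ 2) • fun k => (entryVal (colA chevG2 r 2 (idxN chevG2 j)) (idxN chevG2 k) : F)) +
      ((t ^ 3) • fun k => (entryVal (colA chevG2 r 3 (idxN chevG2 j)) (idxN chevG2 k) : F)) := by
    funext k
    rw [Chev.xMat_entry (D := chevG2) (by decide +kernel) (by decide +kernel) (by decide +kernel) r t k j]
    simp [Finset.sum_range_succ, Pi.single_apply, add_assoc]
  rw [e, pim_add, pim_add, pim_add, pim_smul, pim_smul, pim_smul, pim_single, pim_entryVal, pim_entryVal,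
    pim_entryVal]

theorem form_gen (r : Fin 12) (t : F) : xS r t * red jM * (xS r t)ᵀ = red jM := by
  obtain ⟨d1, d2, d3, d4⟩ := formData r
  rw [xS_congr r t _ d1 d2 d3 d4]
  simp

theorem pim_xMat (r : Fin 12) (t : F) (v : chevG2.Idx → F) :
    xS r t * pim v * (xS r t)ᵀ = pim (chevG2.xMat F r t *ᵥ v) := by
  have hlin : pim (chevG2.xMat F r t *ᵥ v) = ∑ j, v j • pim (fun k => chevG2.xMat F r t k j) := by
    simp only [pim, Matrix.mulVec, dotProduct, Finset.sum_smul, Finset.smul_sum]
    rw [Finset.sum_comm]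
    refine Finset.sum_congr rfl fun j _ => Finset.sum_congr rfl fun k _ => ?_
    rw [smul_smul, mul_comm]
  rw [hlin]
  simp only [← congr_gen]
  simp only [pim, Matrix.mul_sum, Matrix.sum_mul, Matrix.mul_smul, Matrix.smul_mul]

theorem pim_injective : Function.Injective (pim (F := F)) := by
  intro v w h
  funext j
  have hj : idxN chevG2 j < 14 := idxN_lt chevG2 j
  have key : ∀ u : chevG2.Idx → F,
      pim u (sel ⟨idxN chevG2 j, hj⟩).1 (sel ⟨idxN chevG2 j, hj⟩).2 = u j := by
    intro u
    rw [pim, Matrix.sum_apply, Finset.sum_eq_single j]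
    · rw [Matrix.smul_apply, red_entry, selData ⟨idxN chevG2 j, hj⟩ ⟨idxN chevG2 j, hj⟩, if_pos rfl, map_one,
        smul_eq_mul, mul_one]
    · intro k _ hk
      have hk' : idxN chevG2 k < 14 := idxN_lt chevG2 k
      rw [Matrix.smul_apply, red_entry, selData ⟨idxN chevG2 j, hj⟩ ⟨idxN chevG2 k, hk'⟩,
        if_neg (fun e => hk (idxN_inj chevG2 (Fin.mk.inj_iff.1 e))), map_zero, smul_zero]
    · simp
  rw [← key v, h, key w]

variable (F)

/-- pairs intertwined by the linear map and fixing the form -/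
noncomputable def inter : Subgroup (GL (Fin 6) F × GL chevG2.Idx F) where
  carrier := {p | (∀ v, (p.1 : Matrix (Fin 6) (Fin 6) F) * pim v * (p.1 : Matrix (Fin 6) (Fin 6) F)ᵀ =
      pim ((p.2 : Matrix chevG2.Idx chevG2.Idx F) *ᵥ v)) ∧
    (p.1 : Matrix (Fin 6) (Fin 6) F) * red jM * (p.1 : Matrix (Fin 6) (Fin 6) F)ᵀ = red jM}
  one_mem' := ⟨fun v => by simp, by simp⟩
  mul_mem' := by
    intro p q hp hq
    refine ⟨fun v => ?_, ?_⟩
    · simp only [Prod.fst_mul, Prod.snd_mul, Units.val_mul, Matrix.transpose_mul]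
      rw [← Matrix.mulVec_mulVec, ← hp.1, ← hq.1]
      simp only [Matrix.mul_assoc]
    · simp only [Prod.fst_mul, Units.val_mul, Matrix.transpose_mul]
      conv_rhs => rw [← hp.2, ← hq.2]
      simp only [Matrix.mul_assoc]
  inv_mem' := by
    intro p hp
    have key : ∀ A B : Matrix (Fin 6) (Fin 6) F, (p.1 : Matrix (Fin 6) (Fin 6) F) * A * (p.1 : Matrix (Fin 6) (Fin 6) F)ᵀ = B →
        ((p.1⁻¹ : GL (Fin 6) F) : Matrix (Fin 6) (Fin 6) F) * B * ((p.1⁻¹ : GL (Fin 6) F) : Matrix (Fin 6) (Fin 6) F)ᵀ = A := by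
      intro A B h
      rw [← h, ← Matrix.mul_assoc, ← Matrix.mul_assoc, Units.inv_mul, Matrix.one_mul, Matrix.mul_assoc,
        ← Matrix.transpose_mul, Units.inv_mul, Matrix.transpose_one, Matrix.mul_one]
    refine ⟨fun v => ?_, key _ _ hp.2⟩
    refine key _ _ ?_
    rw [hp.1]
    simp [Matrix.mulVec_mulVec]

variable {F}

theorem gen_inter (r : Fin 12) (t : F) (g : GL chevG2.Idx F)
    (hg : (g : Matrix chevG2.Idx chevG2.Idx F) = chevG2.xMat F r t) : (xG r t, g) ∈ inter F :=
  ⟨fun v => by rw [show ((xG r t : GL (Fin 6) F) : Matrix (Fin 6) (Fin 6) F) = xS r t from rfl, hg]; exact pim_xMat r t v,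
    form_gen r t⟩

theorem exists_fst (g : ↥(chevG2.group F)) : ∃ X, (X, (g : GL chevG2.Idx F)) ∈ inter F := by
  have h : chevG2.group F ≤ (inter F).map (MonoidHom.snd _ _) := by
    refine (Subgroup.closure_le _).2 ?_
    rintro x ⟨r, t, hx⟩
    exact ⟨(xG r t, x), gen_inter r t x hx, rfl⟩
  obtain ⟨p, hp, e⟩ := h g.2
  exact ⟨p.1, by rw [← e]; exact hp⟩

theorem snd_eq_one {g : GL chevG2.Idx F} (h : ((1 : GL (Fin 6) F), g) ∈ inter F) : g = 1 := by
  refine Units.ext (Matrix.ext_iff_mulVec.2 fun v => ?_)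
  have := h.1 v
  simp only [Units.val_one, Matrix.one_mul, Matrix.transpose_one, Matrix.mul_one] at this
  rw [Units.val_one, Matrix.one_mulVec]
  exact (pim_injective this).symm

theorem fst_eq_one {X : GL (Fin 6) F} (h : (X, (1 : GL chevG2.Idx F)) ∈ inter F) : X = 1 := by
  set A := (X : Matrix (Fin 6) (Fin 6) F) with hA
  set B := ((X⁻¹ : GL (Fin 6) F) : Matrix (Fin 6) (Fin 6) F) with hB
  have hD : ∀ j : Fin 14, A * red (dM j) * Aᵀ = red (dM j) := by
    intro j
    obtain ⟨k, hk⟩ := exists_idxN chevG2 (show (j : ℕ) < chevG2.rank + chevG2.nroots from j.isLt)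
    have := h.1 (Pi.single k 1)
    rw [Units.val_one, Matrix.one_mulVec, pim_single, hk] at this
    exact this
  have hJ : A * red jM * Aᵀ = red jM := h.2
  have hE : ∀ a b : Fin 6, a ≠ b → A * red (eM a b) = red (eM a b) * Bᵀ := by
    intro a b hab
    have h1 : A * red (eM a b) * Aᵀ = red (eM a b) := by
      have h0 := hD 0
      have h0' := hD 1
      simp only [Fin.val_zero, Fin.val_one] at h0 h0'
      rcases spanData a b hab with ⟨j, e⟩ | e | e | e <;> rw [e] <;>
        simp only [map_add, Matrix.mul_add, Matrix.add_mul, hD, hJ, h0, h0']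
    conv_rhs => rw [← h1]
    rw [Matrix.mul_assoc, Matrix.mul_assoc, ← Matrix.transpose_mul, hA, hB, Units.inv_mul,
      Matrix.transpose_one, Matrix.mul_one]
  have hval : ∀ a b : Fin 6, red (F := F) (eM a b) = Matrix.single a b 1 + Matrix.single b a 1 := by
    intro a b
    ext i j
    rw [red_entry]
    simp only [eM, Matrix.add_apply, Matrix.single_apply, map_add, apply_ite (ZMod.castHom (dvd_refl 2) F),
      map_one, map_zero]
  have hoff : ∀ i a : Fin 6, i ≠ a → A i a = 0 := by
    intro i a hia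
    obtain ⟨b, hbi, hba⟩ : ∃ b : Fin 6, b ≠ i ∧ b ≠ a := by
      revert i a; decide
    have := congrFun (congrFun (hE a b hba.symm) i) b
    rw [hval, Matrix.mul_add, Matrix.add_mul, Matrix.add_apply, Matrix.add_apply] at this
    simpa [hia, hia.symm, hbi, hbi.symm, hba, hba.symm] using this
  have hdiag : ∀ a b : Fin 6, a ≠ b → A a a = B b b := by
    intro a b hab
    have := congrFun (congrFun (hE a b hab) a) b
    rw [hval, Matrix.mul_add, Matrix.add_mul, Matrix.add_apply, Matrix.add_apply] at this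
    simpa [hab, hab.symm] using this
  have hinv : ∀ b : Fin 6, A b b * B b b = 1 := by
    intro b
    have h1 : (A * B) b b = 1 := by rw [hA, hB, Units.mul_inv, Matrix.one_apply_eq]
    rwa [Matrix.mul_apply, Finset.sum_eq_single b (fun k _ hk => by rw [hoff b k (Ne.symm hk), zero_mul])
      (by simp)] at h1
  have hone : ∀ a : Fin 6, A a a = 1 := by
    intro a
    obtain ⟨b, c, hab, hac, hbc⟩ : ∃ b c : Fin 6, a ≠ b ∧ a ≠ c ∧ b ≠ c := by revert a; decide
    have h2 : A a a = B a a :=
      ((hdiag a b hab).trans (hdiag c b hbc.symm).symm).trans (hdiag c a hac.symm)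
    have e : A a a * A a a = 1 := by
      nth_rw 2 [h2]
      exact hinv a
    have h0 : (A a a - 1) * (A a a - 1) = 0 := by
      linear_combination e - CharTwo.two_eq_zero (R := F) * (A a a - 1)
    exact sub_eq_zero.1 (mul_self_eq_zero.1 h0)
  refine Units.ext (Matrix.ext fun i j => ?_)
  rw [Units.val_one, Matrix.one_apply]
  rcases eq_or_ne i j with rfl | hne
  · rw [if_pos rfl, ← hA, hone]
  · rw [if_neg hne, ← hA, hoff i j hne]

theorem fst_unique {X Y : GL (Fin 6) F} {g : GL chevG2.Idx F} (hX : (X, g) ∈ inter F) (hY : (Y, g) ∈ inter F) :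
    X = Y := by
  have := (inter F).mul_mem hX ((inter F).inv_mem hY)
  simp only [Prod.inv_mk, Prod.mk_mul_mk, mul_inv_cancel] at this
  exact mul_inv_eq_one.1 (fst_eq_one this)

variable (F)

/-- The six-dimensional representation. -/
noncomputable def rho : ↥(chevG2.group F) →* GL (Fin 6) F :=
  MonoidHom.mk' (fun g => (exists_fst g).choose) fun g h =>
    fst_unique (exists_fst (g * h)).choose_spec (by
      have := (inter F).mul_mem (exists_fst g).choose_spec (exists_fst h).choose_spec
      simpa using this)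

variable {F}

theorem rho_mem (g : ↥(chevG2.group F)) : (rho F g, (g : GL chevG2.Idx F)) ∈ inter F := (exists_fst g).choose_spec

theorem rho_injective : Function.Injective (rho F) := by
  refine (injective_iff_map_eq_one _).2 fun g hg => Subtype.ext ?_
  have := rho_mem g
  rw [hg] at this
  exact snd_eq_one this

theorem rho_gen (r : Fin 12) (t : F) (g : ↥(chevG2.group F))
    (hg : ((g : GL chevG2.Idx F) : Matrix chevG2.Idx chevG2.Idx F) = chevG2.xMat F r t) : rho F g = xG r t :=
  fst_unique (rho_mem g) (gen_inter r t _ hg)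

theorem rho_form (g : ↥(chevG2.group F)) :
    (rho F g : Matrix (Fin 6) (Fin 6) F) * red jM * (rho F g : Matrix (Fin 6) (Fin 6) F)ᵀ = red jM :=
  (rho_mem g).2

end Cfsg.Agent.KnownA.G24
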